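import Cfsg.Agent.Lib.M3.Reg
import Cfsg.Agent.Lib.Mon.Grp

/-! # The parts of the Griess module and their behaviour under `C` and triality -/

set_option autoImplicit false

namespace Cfsg.Lib.Griess

open Subgroup MulAction Matrix Cfsg.Lib.Leech Cfsg.Lib.ES Finset

/-- the 300-part of an axis -/
noncomputable def aP (x : Q) : V := inA _ (Pm_transpose x)
/-- the basis vector of the 98280-part -/
noncomputable def aX (x : Q) : V := (1 / 8 : ℝ) • (ax (zQ * x) - ax x)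
/-- diagonal matrices -/
noncomputable def dg : (Pt → ℝ) →ₗ[ℝ] V where
  toFun d := inA (diagonal d) (diagonal_transpose d)
  map_add' _ _ := Subtype.ext (by simp [inA, diagonal_add])
  map_smul' _ _ := Subtype.ext (by simp [inA, diagonal_smul])
/-- the commutator form -/
def cmQ (q x : Q) : ZMod 2 := pr q.d x.c + pr x.d q.c

/-- the 300-part -/
def IsA (v : V) : Prop := v.1.2.1 = 0 ∧ v.1.2.2 = 0
/-- the 98280-part -/
def IsU (v : V) : Prop := v.1.1 = 0 ∧ v.1.2.2 = 0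
/-- the 98304-part -/
def IsY (v : V) : Prop := v.1.1 = 0 ∧ v.1.2.1 = 0
/-- matrices with zero diagonal -/
def IsO (v : V) : Prop := IsA v ∧ ∀ i, v.1.1 i i = 0

variable {x y x' y' : Q} {c : Aut} {u v w : V}

theorem dX_zQ (x : Q) : dX (zQ * x) = -dX x := by ext y; rw [← zp_one, dX_zp]; simp

theorem coe_aX (h : Short x) : (aX x : E) = (0, dX x, 0) := by
  simp only [aX, Submodule.coe_smul, Submodule.coe_sub, coe_ax h, coe_ax ((short_zQ_mul x).2 h), Pm_zQ_mul, dX_zQ]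
  ext <;> simp; ring

theorem aX_zQ (x : Q) : aX (zQ * x) = -aX x := by rw [aX, aX, zz]; module

theorem aP_eq (h : Short x) : aP x = (1 / 2 : ℝ) • (ax x + ax (zQ * x)) := Subtype.ext (by
  simp only [aP, inA, Submodule.coe_smul, Submodule.coe_add, coe_ax h, coe_ax ((short_zQ_mul x).2 h), Pm_zQ_mul, dX_zQ]
  ext <;> simp; ring)

theorem isA_aP (x : Q) : IsA (aP x) := ⟨rfl, rfl⟩
theorem isA_dg (d : Pt → ℝ) : IsA (dg d) := ⟨rfl, rfl⟩
theorem isU_aX (h : Short x) : IsU (aX x) := by simp [IsU, coe_aX h]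
theorem isY_inY (Y : YS) : IsY (inY Y) := ⟨rfl, rfl⟩
theorem e4_eq : e4 = dg 1 := Subtype.ext (by simp [e4, dg, inA])

theorem IsA.eq (h : IsA v) : v = inA v.1.1 v.2.1 := Subtype.ext (Prod.ext rfl (Prod.ext h.1 h.2))
theorem IsY.eq (h : IsY v) : v = inY v.1.2.2 := Subtype.ext (Prod.ext h.1 (Prod.ext h.2 rfl))
theorem IsA.smul (h : IsA v) (hc : c ∈ CZ) : IsA (c • v) := by
  obtain ⟨B, hB, e⟩ := exists_inA hc _ v.2.1
  rw [h.eq, aut_smul_def, e]; exact ⟨rfl, rfl⟩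
theorem IsY.smul (h : IsY v) (hc : c ∈ CZ) : IsY (c • v) := by
  rw [h.eq, aut_smul_def, act_inY hc]; exact isY_inY _
theorem IsA.sub (h : IsA u) (h' : IsA v) : IsA (u - v) := by simp [IsA, h.1, h.2, h'.1, h'.2]
theorem IsA.off (h : IsA v) : IsO (v - dg fun i => v.1.1 i i) := ⟨h.sub (isA_dg _), fun i => by simp [dg, inA]⟩

theorem exists_parts (v : V) : ∃ a u y, IsA a ∧ IsU u ∧ IsY y ∧ v = a + u + y :=
  ⟨inA _ v.2.1, ⟨(0, v.1.2.1, 0), transpose_zero, v.2.2⟩, inY v.1.2.2, ⟨rfl, rfl⟩, ⟨rfl, rfl⟩, ⟨rfl, rfl⟩,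
    Subtype.ext (by simp [inA, inY])⟩

theorem IsU.mem {P : Submodule ℝ V} (h : IsU v) (hP : ∀ x, Short x → aX x ∈ P) : v ∈ P := by
  classical
  have : v = ∑ x : {x // Short x}, (v.1.2.1 x / 2) • aX x := Subtype.ext (by
    simp only [AddSubmonoidClass.coe_finsetSum, SetLike.val_smul, coe_aX (Subtype.prop _)]
    refine Prod.ext (by simp [Prod.fst_sum, h.1]) (Prod.ext (funext fun y => ?_) (by simp [Prod.snd_sum, h.2]))
    simp only [Prod.snd_sum, Prod.fst_sum, Prod.smul_mk, Finset.sum_apply, Pi.smul_apply, smul_eq_mul]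
    by_cases hy : Short y
    · rw [sum_eq_add ⟨y, hy⟩ ⟨zQ * y, (short_zQ_mul y).2 hy⟩ (by simpa using (zQ_mul_ne y).symm) _ (by simp) (by simp)]
      · simp [dX_zQ, dX_self, v.2.2.1]; ring
      · intro x _ hx
        rw [dX_eq_zero, mul_zero]
        intro e
        rcases piQ_eq_iff.1 e.symm with e | e
        exacts [hx.1 (Subtype.ext e), hx.2 (Subtype.ext e)]
    · rw [v.2.2.2 y hy, sum_eq_zero fun x _ => by rw [dX_eq_zero fun e => hy ((short_congr' e).2 x.2), mul_zero]])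
  exact this ▸ P.sum_mem fun x _ => P.smul_mem _ (hP _ x.2)

theorem conj_mul (h : c * qV x * c⁻¹ = qV x') (h' : c * qV y * c⁻¹ = qV y') : c * qV (x * y) * c⁻¹ = qV (x' * y') := by
  rw [map_mul, map_mul, ← h, ← h']; group

theorem smul_aX (hc : c ∈ CZ) (h : c * qV x * c⁻¹ = qV y) : c • aX x = aX y := by
  rw [aX, smul_comm, smul_sub, smul_ax_of_conj hc h, smul_ax_of_conj hc (conj_mul (mem_CZ.1 hc) h), aX]

theorem smul_aP (hc : c ∈ CZ) (hx : Short x) (hy : Short y) (h : c * qV x * c⁻¹ = qV y) : c • aP x = aP y := by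
  rw [aP_eq hx, smul_comm, smul_add, smul_ax_of_conj hc h, smul_ax_of_conj hc (conj_mul (mem_CZ.1 hc) h), aP_eq hy]

theorem exists_conj₁ (hx : Short x) (hy : Short y) : ∃ c ∈ CZ, c * qV x * c⁻¹ = qV y :=
  let ⟨c, hc, e, _⟩ := exists_smul_ax hx hy; ⟨c, hc, conj_of_smul_ax hx hy e⟩

theorem exists_conj₂ (hx : Short x) (hy : Short y) (hx' : Short x') (hy' : Short y') (h : ip (ax x) (ax y) = 4)
    (h' : ip (ax x') (ax y') = 4) : ∃ c ∈ CZ, c * qV x * c⁻¹ = qV x' ∧ c * qV y * c⁻¹ = qV y' :=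
  let ⟨c, hc, e, e'⟩ := exists_smul_ax₂ hx hy hx' hy' h h'
  ⟨c, hc, conj_of_smul_ax hx hx' e, conj_of_smul_ax hy hy' e'⟩

theorem four_of_dt {r s : leechLattice} (hr : nm(r) = 32) (hs : nm(s) = 32) (e : (r : L2) = piQ x)
    (e' : (s : L2) = piQ y) (h : dt(r, s) = 16 ∨ dt(r, s) = -16) : ip (ax x) (ax y) = 4 := by
  rw [ip_four_iff ⟨r, hr, e⟩ ⟨s, hs, e'⟩, trace_PP hs hr e' e, dot_comm]
  rcases h with h | h <;> rw [h] <;> norm_num

theorem cmQ_mul (q x y : Q) : cmQ q (x * y) = cmQ q x + cmQ q y := by simp [cmQ, pr_add]; ring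

theorem exists_cmQ (h : piQ x ≠ 0) : ∃ q, cmQ q x = 1 := by
  by_contra! h1
  have h2 : ∀ q, cmQ q x = 0 := fun q => (z2_cases _).resolve_right (h1 q)
  have h3 : x.d = 0 := eq_zero_of_pr_left fun c => by simpa [cmQ] using h2 ⟨0, 0, c⟩
  have h4 : x.c = 0 := eq_zero_of_pr_right fun d => by simpa [cmQ] using h2 ⟨0, d, 0⟩
  exact h ((piQ_congr (y := 1) h3 h4).trans piQ_one)

theorem qV_smul_aX (q x : Q) : qV q • aX x = sg (cmQ q x) • aX x := by
  rw [smul_aX (qV_mem q) (y := q * x * q⁻¹) (by simp), conj_eq, ← cmQ]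
  rcases z2_cases (cmQ q x) with e | e <;> simp [e, zp_zero, zp_one, aX_zQ]
  module

theorem IsA.qV (h : IsA v) (q : Q) : qV q • v = v := Subtype.ext (by
  rw [aut_smul_def, coe_qV]; exact Prod.ext rfl (Prod.ext (by simp [h.1]; rfl) (by simp [h.2])))

theorem z_smul_of (h : v.1.2.2 = 0) : qV zQ • v = v := Subtype.ext (by
  rw [aut_smul_def, coe_z, h, neg_zero, ← h])
theorem IsY.z (h : IsY v) : qV zQ • v = (-1 : ℝ) • v := Subtype.ext (by
  rw [aut_smul_def, coe_z]; exact Prod.ext (by simp [h.1]) (Prod.ext (by simp [h.2]) (by simp)))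

/-! ### triality -/

/-- the image of the 98280-part under `τ` -/
def InT1 (v : V) : Prop := (co v).a = 0 ∧ (co v).y = 0 ∧ (co v).u1 = 0 ∧ (co v).u3 = 0
/-- the image of the 98280-part under `τ⁻¹` -/
def InT2 (v : V) : Prop := (co v).a = 0 ∧ (co v).w = 0 ∧ (co v).u1 = 0 ∧ (co v).u2 = 0

theorem isU_of_co (h1 : (co v).a = 0) (h2 : (co v).x = 0) (h3 : (co v).u2 = 0) (h4 : (co v).u3 = 0) : IsU v :=
  ⟨Matrix.ext fun i j => by simp [A_eq, h1, h2], Matrix.ext fun i j => by simp [Y_eq, h3, h4]⟩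
theorem InT1.tau (h : InT1 v) : IsU (tau • tau • v) := by
  apply isU_of_co <;> simp only [co_tau_smul, tauC, h.1, h.2.1, h.2.2.1, h.2.2.2]
theorem InT2.tau (h : InT2 v) : IsU (tau • v) := by
  apply isU_of_co <;> simp only [co_tau_smul, tauC, h.1, h.2.1, h.2.2.1, h.2.2.2]

theorem IsO.t (h : IsO v) : InT1 v ∧ InT2 v := by
  refine ⟨⟨?_, ?_, ?_, ?_⟩, ?_, ?_, ?_, ?_⟩ <;> ext <;> simp [co, h.1.1, h.1.2, h.2]

theorem tau_dg (d : Pt → ℝ) : tau • dg d = dg d := Subtype.ext (co_injective (tau • dg d).2 (dg d).2 (by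
  rw [co_tau_smul]
  ext <;> simp +contextual [tauC, co, dg, inA, Hd, Dg, diagonal_apply]))

theorem aX_T {O : Cd} {δ : W} (h : Good O δ) : (InT1 (aX (eT O δ)) ∧ InT2 (aX (eT O δ))) ∧ qV aOm • aX (eT O δ) = aX (eT O δ) := by
  have hX := fun q => dX_eS (.inr (.inl ⟨(O, δ), h⟩)) q
  have e := coe_aX (short_eT h)
  have hP : ∀ m k l, dX (eT O δ) (eP m k l) = 0 := fun m k l => by
    by_cases e' : k = l
    · simpa [e, e'] using (aX (eT O δ)).2.2.2 _ (not_short_eP m l)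
    · simpa [iota, eS] using hX (.inl (m, ⟨(k, l), e'⟩))
  have hW : ∀ d i, dX (eT O δ) (eW d i) = 0 := fun d i => by simpa [iota, eS] using hX (.inr (.inr (d, i)))
  refine ⟨⟨⟨?_, ?_, ?_, ?_⟩, ?_, ?_, ?_, ?_⟩, ?_⟩
  all_goals first | (ext; simp [co, e, hP, hW]; done) | skip
  have := par_eT h
  rw [qV_smul_aX, cmQ, aOm_c, map_zero, add_zero, aOm_d, show pr Om _ = _ from this, sg_zero, one_smul]

theorem IsY.split (h : IsY v) : ∃ a b, InT1 a ∧ InT2 b ∧ qV aOm • a = a ∧ qV aOm • b = (-1 : ℝ) • b ∧ v = a + b := by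
  have e : ((qV aOm • v : V) : E) = (0, 0, Matrix.of fun c k => v.1.2.2 (c + Om) k) := by
    rw [aut_smul_def, coe_qV', h.1, h.2]; ext <;> simp [rs]
  have e2 : qV aOm • qV aOm • v = v := by
    rw [← mul_smul, ← map_mul, mul_self_eq]; simp [zp_zero]
  refine ⟨(1 / 2 : ℝ) • (v + qV aOm • v), (1 / 2 : ℝ) • (v - qV aOm • v), ⟨?_, ?_, ?_, ?_⟩, ⟨?_, ?_, ?_, ?_⟩, ?_, ?_, ?_⟩
  iterate 8 ext; simp [co, e, h.1, h.2, add_add_cd]; try exact .inr (by ring)
  · rw [smul_comm, smul_add, e2, add_comm]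
  · rw [smul_comm, smul_sub, e2]; generalize qV aOm • v = w; module
  · generalize qV aOm • v = w; module

end Cfsg.Lib.Griess
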