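import Cfsg.Agent.Lib.Mon.DegP
import Cfsg.Agent.Lib.Mon.Nor

/-! # Small representations of `M1`: the weight spaces of `Q` -/

set_option autoImplicit false

namespace Cfsg.Lib.Deg

open Module Finset LinearMap Griess Subgroup MulAction Cfsg.Lib.Mon
open Spor hiding tau
open Leech hiding vW

variable {K N : Type*} [Field K] [AddCommGroup N] [Module K N]

/-- a faithful representation of `M1` -/
structure RepM (ρ : Aut → End K N) : Prop where
  mul : ∀ {g k}, g ∈ M1 → k ∈ M1 → ρ (g * k) = ρ g * ρ k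
  one : ρ 1 = 1
  ne : ρ zA ≠ 1

/-- the projector onto a weight space of `Q` -/
noncomputable def PQ (ρ : Aut → End K N) (x : Q) : End K N := pj (fun q => ρ (qV q)) (cmQ · x)

theorem mq (q : Q) : qV q ∈ M1 := CZ_le_M1 (qV_mem q)
theorem cmQ_comm (x y : Q) : cmQ x y = cmQ y x := add_comm _ _
theorem ch_cmQ (x : Q) : Ch2 (cmQ · x) := fun a b => by simp only [cmQ_comm _ x, cmQ_mul]
theorem cmQ_congr {x y : Q} (h : piQ x = piQ y) (q : Q) : cmQ q x = cmQ q y := by
  rcases piQ_eq_iff.1 h with rfl | rfl <;> simp [cmQ]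
theorem cmQ_aut (α : Q ≃* Q) (h : α zQ = zQ) (q x : Q) : cmQ (α q) (α x) = cmQ q x := by
  have h1 := congrArg α (conj_eq q x)
  rw [map_mul, map_mul, map_inv, conj_eq, map_mul, mul_left_inj, show α (zp _) = zp (cmQ q x) by
    rcases z2_cases (cmQ q x) with e | e <;> simp [← cmQ.eq_1, e, zp_zero, zp_one, h]] at h1
  exact congrArg Q.s h1
theorem exists_cmQ_ne {x y : Q} (h : piQ x ≠ piQ y) : ∃ q, cmQ q x ≠ cmQ q y := by
  obtain ⟨q, hq⟩ := exists_cmQ (x := x * y) fun e => h (by rwa [piQ_mul, add_eq_zero_iff_eq_neg, l2_neg] at e)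
  exact ⟨q, fun e => by simp [cmQ_mul, e] at hq⟩
theorem PQ_congr (ρ : Aut → End K N) {x y : Q} (h : piQ x = piQ y) : PQ ρ x = PQ ρ y := by simp only [PQ, cmQ_congr h]

theorem le_ncard {u : leechLattice} {n : ℤ} (h : nm(u) = n) (h' : n = 48 ∨ n = 64) {x : Q} (e : (u : L2) = piQ x) :
    8292375 ≤ {y | ∃ c ∈ CZ, c * qV x * c⁻¹ = qV y}.ncard := by
  refine le_trans (b := (code '' shell n).ncard) (by rcases h' with rfl | rfl <;> simp [ncard_code48, ncard_code64])
    (le_trans (Set.ncard_le_ncard ?_) (Set.ncard_image_le (f := fun y => code2 (piQ y))))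
  rintro _ ⟨v, hv, rfl⟩
  obtain ⟨g, hg⟩ := exists_smul_mk (x := u) (y := v) (h.trans hv.symm) (.inr (h ▸ h'))
  obtain ⟨g, rfl⟩ := QuotientGroup.mk_surjective g
  obtain ⟨L, hL⟩ := exists_lift g
  exact ⟨L.α x, ⟨_, L.act_mem, L.conj_qV x⟩, by simp only [hL.2, ← e, ← Leech.mk_smul, hg, code2_mk]⟩

theorem commutator_stab {x : Q} (hx : Short x) : commutator (stabilizer Co1 (piQ x)) = ⊤ := by
  obtain ⟨r, hr, e⟩ := hx
  obtain ⟨g, hg⟩ := exists_smul_mk (hr.trans nm_leechU.symm) (.inl hr)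
  let φ := stabUEquiv.trans (stabilizerEquivStabilizer (g := g) (a := piQ x) (by rw [← e, hg])).symm
  have := simple_co2
  have := φ.symm.isSimpleGroup
  refine (inferInstance : (commutator _).Normal).eq_bot_or_eq_top.resolve_left fun h => ?_
  have : IsMulCommutative (stabilizer Co1 (piQ x)) := (commutator_eq_bot_iff _).1 h
  have := (Group.is_simple_iff_prime_card (α := stabilizer Co1 (piQ x))).1 ‹_›
  rw [← Nat.card_congr φ.toEquiv, card_co2] at this
  exact absurd this (by norm_num)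

theorem sum_weight {μ m0 : ℕ} {m : Q → ℕ} (h1 : ∀ x, Short x → m x = μ) (h2 : ∀ x, piQ x = 0 → m x = m0)
    (h3 : ∀ x, ¬ Short x → piQ x ≠ 0 → m x = 0) :
    ∑ x, (2 - sz (cmQ aOm x)) * (m x : ℤ) = 2 * (m0 + 196584 * μ) := by
  classical
  have e : ∀ x, cmQ aOm x = par x := fun x => by simp [cmQ, par]
  have : ∀ x, (((2 - sz (cmQ aOm x)) * (m x : ℤ) : ℤ) : ℝ) = (if Short x then (2 - sg (par x)) * μ else 0) +
      ((if x = 1 then (m0 : ℝ) else 0) + if x = zQ then (m0 : ℝ) else 0) := fun x => by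
    by_cases hs : Short x
    · have a : x ≠ 1 := fun h => hs.piQ_ne (h ▸ piQ_one)
      have b : x ≠ zQ := fun h => hs.piQ_ne (h ▸ piQ_zQ)
      simp [hs, a, b, e, h1]
    by_cases h0 : piQ x = 0
    · rcases piQ_eq_zero h0 with rfl | rfl <;> simp [hs, h2 _ h0, zQ_ne_one, zQ_ne_one.symm, cmQ]
    · have a : x ≠ 1 := fun h => h0 (h ▸ piQ_one)
      have b : x ≠ zQ := fun h => h0 (h ▸ piQ_zQ)
      simp [hs, a, b, h3 x hs h0]
  apply Int.cast_injective (α := ℝ)
  rw [Int.cast_sum, sum_congr rfl fun x _ => this x, sum_add_distrib, sum_add_distrib,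
    sum_SI (fun x => by simp [← zp_one]) fun x hx => if_neg hx]
  have h4 : ∀ p, (2 - sg (par (eS p))) * (μ : ℝ) = μ + Sum.elim (fun _ => 0) (Sum.elim (fun _ => 0) fun _ => 2 * (μ : ℝ)) p := by
    rintro (p | ⟨p, hp⟩ | p)
    · simp [eS, par_eP]; ring
    · simp [eS, par_eT hp]; ring
    · simp [eS, par_eW]; ring
  simp only [short_eS, if_true, h4, sum_add_distrib, sum_const, card_univ, card_SI]
  simp [Fintype.sum_sum_type, card_Cd', show Fintype.card Pt = 24 from rfl]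
  ring

namespace RepM

variable {ρ : Aut → End K N} (h : RepM ρ) {x y : Q} {c : Aut}
include h

theorem rel {a b c d : Aut} (ha : a ∈ M1) (hb : b ∈ M1) (hc : c ∈ M1) (hd : d ∈ M1) (e : a * b = c * d) :
    ρ a * ρ b = ρ c * ρ d := by rw [← h.mul ha hb, e, h.mul hc hd]
theorem mul_inv {g : Aut} (hg : g ∈ M1) : ρ g * ρ g⁻¹ = 1 := by rw [← h.mul hg (inv_mem hg), mul_inv_cancel, h.one]
theorem nh : NH fun q => ρ (qV q) := fun a b => by simp only [map_mul, h.mul (mq a) (mq b)]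
theorem q_PQ (q x : Q) : ρ (qV q) * PQ ρ x = sk K (cmQ q x) • PQ ρ x := mul_pj h.nh (ch_cmQ x) q

theorem semi (hc : c ∈ CZ) (e : c * qV x * c⁻¹ = qV y) : ρ c * PQ ρ x = PQ ρ y * ρ c := by
  obtain ⟨L, -, -, rfl⟩ := exists_lift_eq hc
  obtain rfl := qV_injective ((L.conj_qV x).symm.trans e)
  exact semi_pj L.α.toEquiv (fun q => h.rel (CZ_le_M1 hc) (mq _) (mq _) (CZ_le_M1 hc) (L.act_mul_qV q))
    fun q => cmQ_aut _ L.α_z q x

variable [CharZero K]

theorem idem (x : Q) : PQ ρ x * PQ ρ x = PQ ρ x := pj_idem h.nh (ch_cmQ x) (by simp)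
theorem orth (e : piQ x ≠ piQ y) : PQ ρ x * PQ ρ y = 0 :=
  let ⟨_, hq⟩ := exists_cmQ_ne e; pj_mul_pj two_ne_zero h.nh (ch_cmQ x) (ch_cmQ y) hq

theorem sum_PQ : ∑ x, PQ ρ x = 1 + ρ zA := by
  simp only [PQ, sum_pj]
  rw [sum_eq_add 1 zQ zQ_ne_one.symm (fun q _ hq => ?_) (by simp) (by simp)]
  · simp [cmQ, h.one, ← smul_add, smul_smul]
  obtain ⟨x, hx⟩ := exists_cmQ (x := q) fun e => (piQ_eq_zero e).elim hq.1 hq.2
  simp only [cmQ_comm q, sum_sk two_ne_zero (ch_cmQ q) hx, zero_smul]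

theorem exists_PQ {v : N} (hv : v ≠ 0) (hz : ρ zA v = v) : ∃ x, PQ ρ x v ≠ 0 := by
  by_contra! h0
  have := congr($(h.sum_PQ) v)
  simp only [LinearMap.sum_apply, h0, sum_const_zero, LinearMap.add_apply, Module.End.one_apply, hz, ← two_smul K] at this
  exact hv ((smul_eq_zero_iff_right two_ne_zero).1 this.symm)

variable [FiniteDimensional K N]

omit [CharZero K] in
theorem rk_conj (hc : c ∈ CZ) (e : c * qV x * c⁻¹ = qV y) : rk (PQ ρ y) = rk (PQ ρ x) :=
  (rk_congr (h.semi hc e) (h.mul_inv (CZ_le_M1 hc))).antisymm (rk_congr (h.semi (inv_mem hc) (by rw [← e]; group))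
    (h.mul_inv (CZ_le_M1 (inv_mem hc))))

omit [CharZero K] [FiniteDimensional K N] in
theorem tr_conj {g k : Aut} (hg : g ∈ M1) (hk : k ∈ M1) : trace K N (ρ (g * k * g⁻¹)) = trace K N (ρ k) := by
  rw [h.mul (mul_mem hg hk) (inv_mem hg), trace_mul_comm, ← h.mul (inv_mem hg) (mul_mem hg hk), inv_mul_cancel_left]

theorem two_mul_finrank : (2 * finrank K N : ℤ) = ∑ x, (2 - sz (cmQ aOm x)) * (rk (PQ ρ x) : ℤ) := by
  have h1 := congrArg (trace K N) h.sum_PQ
  have h2 := congrArg (trace K N <| ρ wA * ·) h.sum_PQ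
  have h3 := h.tr_conj tau_mem_M1 (mq zQ)
  have h4 := h.tr_conj tau_mem_M1 (mq aOm)
  rw [tau_conj_zQ] at h3
  rw [tau_conj_aOm, zQ_comm, map_mul, h.mul (mq _) (mq _)] at h4
  simp only [mul_sum, h.q_PQ, map_sum, map_smul, tr_idem (h.idem _), mul_add, map_add, mul_one, trace_one, smul_eq_mul,
    h3, h4] at h1 h2
  apply Int.cast_injective (α := K)
  simp only [Int.cast_sum, Int.cast_mul, Int.cast_sub, sub_mul, sum_sub_distrib, Int.cast_natCast, Int.cast_ofNat,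
    ← mul_sum, h1, ← sk.eq_1, h2]
  ring

theorem PQ_eq_zero (hn : finrank K N < 196883) (hs : ¬ Short x) (h0 : piQ x ≠ 0) : PQ ρ x = 0 := by
  classical
  obtain e | ⟨u, e, hu⟩ := short_cases (piQ x)
  · exact (h0 e).elim
  have h1 := le_ncard rfl (hu.resolve_left fun hu => hs ⟨u, hu, e⟩) e
  have h2 : ∑ y ∈ univ.filter fun y => ∃ c ∈ CZ, c * qV x * c⁻¹ = qV y, (rk (PQ ρ x) : ℤ) ≤ 2 * finrank K N := by
    rw [h.two_mul_finrank, sum_filter]
    refine sum_le_sum fun y _ => ?_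
    have : 1 ≤ 2 - sz (cmQ aOm y) := by rcases z2_cases (cmQ aOm y) with e | e <;> simp [e]
    split_ifs with e
    · obtain ⟨c, hc, e⟩ := e
      rw [h.rk_conj hc e]; exact le_mul_of_one_le_left (Nat.cast_nonneg _) this
    · exact mul_nonneg (zero_le_one.trans this) (Nat.cast_nonneg _)
  rw [sum_const, ← Set.ncard_coe_finset, coe_filter_univ, nsmul_eq_mul] at h2
  refine eq_zero_of_rk ?_
  generalize Set.ncard _ = a, rk (PQ ρ x) = b at h1 h2
  nlinarith

theorem rk_PQ (hn : finrank K N < 196883) : (∀ x, Short x → rk (PQ ρ x) = 1) ∧ rk (PQ ρ 1) ≤ 298 := by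
  have h0 := short_eW 0 none
  have h1 : ∀ x, Short x → rk (PQ ρ x) = rk (PQ ρ (eW 0 none)) := fun x hx =>
    let ⟨_, hc, e⟩ := exists_conj₁ h0 hx; h.rk_conj hc e
  have h2 := h.two_mul_finrank.trans (sum_weight h1 (m0 := rk (PQ ρ 1)) (fun x e => by
    rw [PQ_congr ρ (e.trans piQ_one.symm)]) fun x a b => by rw [h.PQ_eq_zero hn a b]; simp [rk])
  have h3 : rk (PQ ρ (eW 0 none)) ≠ 0 := fun e => h.ne (LinearMap.ext fun v => by
    obtain ⟨w, rfl⟩ := range_eq_top.1 (Submodule.eq_top_of_finrank_eq (S := range (PQ ρ 1)) (show rk _ = _ by omega)) v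
    simpa [cmQ] using congr($(h.q_PQ zQ 1) w))
  exact ⟨fun x hx => by rw [h1 x hx]; omega, by omega⟩

set_option maxHeartbeats 1000000 in
omit [CharZero K] in
/-- `2^{2+22}.Co₂` acts trivially on the weight space of a short element -/
theorem fix_PQ (hx : Short x) (h1 : rk (PQ ρ x) ≤ 1) (h2 : PQ ρ x * PQ ρ x = PQ ρ x) (hc : c ∈ CZ)
    (e : c * qV x = qV x * c) : ρ c * PQ ρ x = PQ ρ x := by
  let S := (centralizer {qV x}).subgroupOf CZ
  have mS : ∀ g : S, (g : Aut) * qV x * (g : Aut)⁻¹ = qV x := fun g =>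
    mul_inv_eq_iff_eq_mul.2 (mem_centralizer_singleton_iff.1 g.2)
  have mM : ∀ g : S, (g : Aut) ∈ M1 := fun g => CZ_le_M1 g.1.2
  let H : Subgroup S :=
    { carrier := {g | ρ g * PQ ρ x = PQ ρ x}
      one_mem' := show ρ 1 * _ = _ by rw [h.one, one_mul]
      mul_mem' := fun {a b} ha hb => show ρ (a * b) * _ = _ by rw [h.mul (mM a) (mM b), mul_assoc, hb, ha]
      inv_mem' := fun {a} ha => show ρ (a : Aut)⁻¹ * _ = _ by
        rw [← show _ = PQ ρ x from ha, ← mul_assoc, ← h.mul (inv_mem (mM a)) (mM a), inv_mul_cancel, h.one, one_mul, ha] }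
  let f : S →* stabilizer Co1 (piQ x) := (rhoC.comp S.subtype).codRestrict _ fun g =>
    (piM_conj g x).symm.trans (by rw [mS, piM_qV])
  have hf : Function.Surjective f := fun a => by
    obtain ⟨g, hg⟩ := xd.surj a
    obtain ⟨y, e, -⟩ := exists_conj g.2 x
    have e' : piQ y = piQ x := by rw [← piM_qV, ← e, piM_conj]; exact (congr($hg • piQ x)).trans a.2
    obtain ⟨q, hq⟩ : ∃ q, q * y * q⁻¹ = x := by
      rcases piQ_eq_iff.1 e' with rfl | rfl
      · exact ⟨1, by simp⟩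
      · obtain ⟨q, hq⟩ := exists_cmQ hx.piQ_ne
        exact ⟨q, by rw [conj_eq, show _ + _ = (1 : ZMod 2) by simpa [cmQ] using hq, zp_one, zz]⟩
    refine ⟨⟨⟨_, qV_mem q⟩ * g, mem_centralizer_singleton_iff.2 (mul_inv_eq_iff_eq_mul.1 ?_)⟩, Subtype.ext ?_⟩
    · change qV q * g * qV x * (qV q * g)⁻¹ = qV x
      conv_rhs => rw [← hq, map_mul, map_mul, ← e]
      simp [mul_assoc]
    · change rhoC (_ * g) = a
      rw [map_mul, rhoC_eq_one.2 ⟨q, rfl⟩, one_mul]; exact hg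
  have h3 : commutator S ≤ H := commutator_le.2 fun a _ b _ => by
    have key : ∀ a b : Aut, a ∈ CZ → b ∈ CZ → a * qV x * a⁻¹ = qV x → b * qV x * b⁻¹ = qV x →
        ρ (a * b * a⁻¹ * b⁻¹) * PQ ρ x = PQ ρ x := fun a b ha hb ea eb => by
      obtain ⟨s, hs⟩ := exists_smul_of_rk h1 h2 (h.semi ha ea)
      obtain ⟨t, ht⟩ := exists_smul_of_rk h1 h2 (h.semi hb eb)
      have ma := CZ_le_M1 ha
      have mb := CZ_le_M1 hb
      have e1 : PQ ρ x * ρ (a * b) = PQ ρ x * ρ (b * a) := by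
        rw [h.mul ma mb, h.mul mb ma, ← mul_assoc, ← mul_assoc, ← h.semi ha ea, ← h.semi hb eb, hs, ht, smul_mul_assoc,
          smul_mul_assoc, ← h.semi ha ea, ← h.semi hb eb, hs, ht, smul_comm]
      rw [h.semi (y := x) (mul_mem (mul_mem (mul_mem ha hb) (inv_mem ha)) (inv_mem hb)) (by
        rw [mul_inv_eq_iff_eq_mul] at ea eb ⊢
        exact ((((show Commute a _ from ea).mul_left eb).mul_left (Commute.inv_left ea)).mul_left (Commute.inv_left eb)).eq),
        mul_assoc, ← mul_inv_rev, h.mul (mul_mem ma mb) (inv_mem (mul_mem mb ma)), ← mul_assoc, e1, mul_assoc,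
        h.mul_inv (mul_mem mb ma), mul_one]
    exact key _ _ a.1.2 b.1.2 (mS a) (mS b)
  have h4 : f.ker ≤ H := fun g hg => by
    obtain ⟨q, hq⟩ := (rhoC_eq_one (g := g.1)).1 (congrArg Subtype.val (MonoidHom.mem_ker.1 hg))
    have := mul_inv_eq_iff_eq_mul.1 (mS g)
    change ρ g * _ = _
    change qV q = g at hq
    rw [← hq] at this ⊢
    rw [h.q_PQ, show cmQ q x = 0 from pr_eq_of_comm this, sk_zero, one_smul]
  have h5 : H = ⊤ := by
    rw [← comap_map_eq_self h4, eq_top_iff.2 (le_trans _ (map_mono h3)), comap_top]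
    rw [commutator_def, map_commutator, map_top_of_surjective _ hf]; exact (commutator_stab hx).ge
  exact h5.ge (mem_top (⟨⟨c, hc⟩, mem_centralizer_singleton_iff.2 e⟩ : S))

end RepM

end Cfsg.Lib.Deg
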