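import Cfsg.Agent.Lib.Mon.Deg

/-! # Small representations of `M1`: the fixed space of `Q` -/

set_option autoImplicit false

namespace Cfsg.Lib.Deg

open Module Finset LinearMap Griess Subgroup MulAction Cfsg.Lib.Mon Matrix
open Spor hiding tau
open Leech hiding vW

variable {K N : Type*} [Field K] [AddCommGroup N] [Module K N]

/-- a lift to `C` -/
noncomputable def lf (g : Co0) : Aut := (exists_lift g).choose.act
/-- the action of `Co₀` on the fixed space of `Q` -/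
noncomputable def ps (ρ : Aut → End K N) (g : Co0) : End K N := ρ (lf g) * PQ ρ 1
/-- the projector onto a weight space of the sign changes -/
noncomputable def PS (ρ : Aut → End K N) (c : Cs) : End K N :=
  pj (fun d : Multiplicative Cd => ps ρ (mo 1 d.toAdd)) fun d => pr d.toAdd c
/-- the third conjugate of `x_d` -/
noncomputable def zq (d : Cd) : Aut := tau⁻¹ * xq 0 d * tau
/-- duads -/
abbrev du (i j : Pt) : Cs := cs (e1 i + e1 j)

theorem lf_mem (g : Co0) : lf g ∈ CZ := Lift.act_mem _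
theorem rhoC_lf (g : Co0) : rhoC ⟨lf g, lf_mem g⟩ = g := rhoC_act (exists_lift g).choose_spec
theorem ch_pr (c : Cs) : Ch2 fun d : Multiplicative Cd => pr d.toAdd c := fun _ _ => pr_add _ _ _
theorem zq_mem (d : Cd) : zq d ∈ NV := tau_inv_conj_mem (xq_mem 0 d)
theorem mN {g : Aut} (h : g ∈ NV) : g ∈ M1 := CZ_le_M1 (NV_le h)
theorem qV_eP0 (i j : Pt) : qV (eP 0 i j) = bq (e1 i + e1 j) := by rw [eP, zero_smul, bq]

theorem zq_conj (d : Cd) (i j : Pt) :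
    ∃ y, zq d * qV (eP 0 i j) * (zq d)⁻¹ = qV y ∧ (pr d (du i j) = 0 → y = eP 0 i j) ∧ piQ y = piQ (eP (pr d (du i j)) i j) := by
  refine ⟨qe (pr d (du i j)) (pr d (du i j) • Om) 0 * eP 0 i j, ?_, fun e => by rw [e]; ext1 <;> simp,
    piQ_congr (by simp [eP]) (by simp [eP])⟩
  have h1 := qV_conj (qe 0 d (th d)) (eP 0 i j)
  have h2 := tau_conj_bq (pair_dot_one i j)
  rw [show pr (qe 0 d (th d)).d (eP 0 i j).c + _ = pr d (du i j) by simp [eP], qV_eP0, ← xq] at h1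
  rw [map_mul, ← tau_inv_conj_zp, qV_eP0, mul_assoc _ tau, tau_comm_bq (pair_dot_one i j), mul_assoc tau⁻¹, ← mul_assoc (qV _),
    ← h1, zq]
  nth_rw 2 [← h2]
  group

theorem zq_mul (d e : Cd) : ∃ q, zq d * zq e = zq (d + e) * qV q ∧ ∀ i j, cmQ q (eP 0 i j) = 0 := by
  refine ⟨qe ((e : W) ⬝ᵥ th d) (((e : W) ⬝ᵥ th d) • Om) 0 * qe 0 0 ((d : W) * e), ?_, fun i j => by simp [cmQ, eP]⟩
  have h1 := xq_mul 0 0 d e
  have h2 := tau_comm_bq (mul_dot_one d e)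
  rw [zero_add, zero_add, ← add_zero (_ ⬝ᵥ _), xq_add, show xq 0 (d + e) = qV _ from rfl, ← map_mul, zp_comm, map_mul] at h1
  rw [map_mul, ← tau_inv_conj_zp, ← bq, mul_assoc _ tau, h2]
  simp only [zq, mul_assoc, mul_inv_cancel_left]
  rw [← mul_assoc (xq 0 d), h1]; simp only [xq, mul_assoc]

theorem eq_of_du {i j k l : Pt} (h : i ≠ j) (h' : k ≠ l) (e : du k l = du i j) : k = i ∧ l = j ∨ k = j ∧ l = i := by
  simpa [iota] using (eS_eq (s := 0) (t := 0) (p := .inl (0, ⟨(i, j), h⟩)) (q := .inl (0, ⟨(k, l), h'⟩))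
    (by ext1 <;> simp [eS, eP, e])).2

theorem du_ne {i j : Pt} (h : i ≠ j) : du i j ≠ 0 := fun e =>
  (short_eP 0 h).piQ_ne ((piQ_congr (y := 1) (by simp [eP]) e).trans piQ_one)

theorem two_mul_sum {M : Type*} [CommRing M] {F : Cs → M} (h : ∀ c, c ≠ 0 → (∀ i j, i ≠ j → c ≠ du i j) → F c = 0) :
    2 * ∑ c, F c = 2 * F 0 + ∑ p : {p : Pt × Pt // p.1 ≠ p.2}, F (du p.1.1 p.1.2) := by
  rw [← sum_fiberwise' univ (fun p : {p : Pt × Pt // p.1 ≠ p.2} => du p.1.1 p.1.2) F, mul_sum,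
    ← Fintype.sum_ite_eq' (0 : Cs) fun c => 2 * F c, ← sum_add_distrib]
  refine sum_congr rfl fun c _ => ?_
  by_cases h0 : c = 0
  · rw [if_pos h0, sum_eq_zero fun p hp => (du_ne p.2 ((mem_filter.1 hp).2.trans h0)).elim, add_zero]
  by_cases h1 : ∀ i j, i ≠ j → c ≠ du i j
  · simp [h c h0 h1]
  push Not at h1
  obtain ⟨i, j, e, rfl⟩ := h1
  rw [if_neg h0, zero_add, sum_eq_add (⟨(i, j), e⟩ : {p : Pt × Pt // p.1 ≠ p.2}) ⟨(j, i), e.symm⟩ (by simp [e]) _ (fun h => absurd (by simp only [mem_filter, mem_univ, true_and]) h)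
    fun h => absurd (by simp only [mem_filter, mem_univ, true_and, du, add_comm]) h, two_mul]
  intro p hp hq
  rcases eq_of_du e p.2 (mem_filter.1 hp).2 with ⟨a, b⟩ | ⟨a, b⟩
  exacts [(hq.1 (Subtype.ext (Prod.ext a b))).elim, (hq.2 (Subtype.ext (Prod.ext a b))).elim]

theorem sW_dot (σ : M24) (u v : W) : sW σ u ⬝ᵥ sW σ v = u ⬝ᵥ v := Equiv.sum_comp (σ : Equiv.Perm Pt).symm fun p => u p * v p

theorem sC_bij (σ : M24) : Function.Bijective (sC σ) := Finite.injective_iff_bijective.1 fun d e h =>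
  Subtype.ext (funext fun i => by rw [← sW_apply σ d, ← sW_apply σ e]; exact congr(($h).1 _))

/-- the matrix of a monomial transformation -/
def hz (σ : M24) (e : Cd) (i j : Pt) : ℤ := if (σ : Equiv.Perm Pt).symm i = j then sz ((e : W) i) else 0
/-- the contribution of a pair to the trace on symmetric matrices -/
def tz (σ : M24) (e : Cd) (i j : Pt) : ℤ := hz σ e i i * hz σ e j j + hz σ e i j * hz σ e j i

theorem cM_mo (σ : M24) (e : Cd) (i j : Pt) : cM (mo σ e) i j = hz σ e i j := by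
  simp only [cM, rv, of_apply, mo_apply, coe_e8, hz, Pi.single_apply]; split_ifs <;> simp

theorem tz_conj {a : Co0} {σ : M24} {d e : Cd} (h : a * mo 1 d * a⁻¹ = mo σ e)
    (h' : ∑ p : {p : Pt × Pt // p.1 ≠ p.2}, tz σ e p.1.1 p.1.2 = ∑ p : {p : Pt × Pt // p.1 ≠ p.2}, tz 1 d p.1.1 p.1.2) :
    σ = 1 := by
  have h1 : ∀ σ e, ((cM (mo σ e)).trace ^ 2 + (cM (mo σ e * mo σ e)).trace : ℝ) =
      ((∑ i, tz σ e i i) + ∑ p : {p : Pt × Pt // p.1 ≠ p.2}, tz σ e p.1.1 p.1.2 : ℤ) := fun σ e => by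
    rw [sum_pairs, ← sum_add_distrib, sum_congr rfl (g := fun i => ∑ j, tz σ e i j) fun i _ => by
      rw [← Fintype.sum_ite_eq i (tz σ e i), ← sum_add_distrib]; exact sum_congr rfl fun j _ => by split_ifs <;> simp]
    simp only [cM_mul, Matrix.trace, Matrix.diag, Matrix.mul_apply, cM_mo, sq, sum_mul_sum, tz, sum_add_distrib, Int.cast_add,
      Int.cast_sum, Int.cast_mul]
  have h2 : ∀ g, (cM (a * g * a⁻¹)).trace = (cM g).trace := fun g => by
    rw [cM_mul, Matrix.trace_mul_comm, ← cM_mul, inv_mul_cancel_left]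
  have h3 := h1 σ e
  rw [← h, show a * mo 1 d * a⁻¹ * (a * mo 1 d * a⁻¹) = a * (mo 1 d * mo 1 d) * a⁻¹ by group, h2, h2, h1, h'] at h3
  have h4 : ∀ σ e i, tz σ e i i = if (σ : Equiv.Perm Pt).symm i = i then 2 else 0 := fun σ e i => by
    rcases z2_cases ((e : W) i) with h | h <;> simp only [tz, hz, h] <;> split_ifs <;> simp
  have h6 : ∀ i, tz 1 d i i = 2 := fun i => (h4 1 d i).trans (if_pos rfl)
  have h5 := (sum_eq_sum_iff_of_le fun i _ => by rw [h4, h6]; split_ifs <;> decide).1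
    (add_right_cancel (Int.cast_injective h3)).symm
  refine Subtype.ext (Equiv.ext fun i => Eq.symm ?_)
  simpa [h4, h6, Equiv.symm_apply_eq] using h5 i (mem_univ _)

theorem exists_fusion : ∃ (a : Co0) (σ : M24) (d e : Cd), a * mo 1 d * a⁻¹ = mo σ e ∧ σ ≠ 1 := by
  obtain ⟨d, δ, h4, h2⟩ : ∃ (d : Cd) (δ : W), wt δ = 4 ∧ wt ((d : W) * δ) = 2 :=
    (by decide +kernel : ∃ i, wt (e1 (pk 0) + e1 (pk 1) + e1 (pk 2) + e1 i) = 4 ∧
      wt ((bk 0 : W) * (e1 (pk 0) + e1 (pk 1) + e1 (pk 2) + e1 i)) = 2).elim fun _ h => ⟨_, _, h⟩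
  obtain ⟨a, ha⟩ := exists_smul_mk (y := e8 none) ((nm_lF h4).trans (sqNorm_e8 _).symm) (.inr (.inr (nm_lF h4)))
  obtain ⟨a, rfl⟩ := QuotientGroup.mk_surjective a
  replace ha : ((a • lF h4 : leechLattice) : L2) = e8 none := ha
  have h1 : ((mo 1 d • lF h4 : leechLattice) : L2) = lF h4 := mk_eq_of (four_mul_mem (t := fun k => -vz (((d : W) * δ) k))
    (by rw [sum_neg_distrib, sum_vz, h2]; rfl)) fun k => by
    rw [mo_apply]
    change _ * (4 * vz (δ k)) - 4 * vz (δ k) = _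
    rcases z2_cases ((d : W) k) with e | e <;> simp [e]; ring
  obtain ⟨σ, e, h⟩ := exists_mo (c := a * mo 1 d * a⁻¹) (by
    rw [om_eq, ← ha, ← Leech.smul_mk, ← mul_smul, inv_mul_cancel_right, mul_smul, Leech.smul_mk, h1, Leech.smul_mk])
  refine ⟨a, σ, d, e, h, ?_⟩
  rintro rfl
  obtain ⟨j, s, hj⟩ : ∃ j, ∃ s : ℤ, a • lF h4 = s • e8 j :=
    let ⟨j, hj⟩ := eq_e8_of_code ((sqNorm_smul a _).trans (nm_lF h4)) (L2_eq_iff.1 ha)
    hj.elim (fun h => ⟨j, 1, by simp [h]⟩) fun h => ⟨j, -1, by simp [h]⟩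
  have h3 : mo 1 d • lF h4 = sz ((e : W) j) • lF h4 := smul_left_cancel a (by
    rw [← mul_smul, eq_mul_of_mul_inv_eq h, mul_smul, smul_comm a, hj]
    refine Subtype.ext (funext fun k => ?_)
    rw [mo_apply]
    change _ * (s * (e8 j : Pt → ℤ) k) = _ * (s * (e8 j : Pt → ℤ) k)
    by_cases hk : k = j <;> simp [coe_e8, hk])
  have h5 : (d : W) * δ = (e : W) j • δ := funext fun k => by
    have := congr(($h3 : Pt → ℤ) k)
    rw [mo_apply] at this
    change _ * (4 * vz (δ k)) = _ * (4 * vz (δ k)) at this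
    rcases z2_cases (δ k) with u | u <;> simp [u] at this ⊢
    exact (by decide : ∀ a b, sz a = sz b → a = b) _ _ this
  rcases z2_cases ((e : W) j) with u | u <;> simp [h5, u, h4] at h2

namespace RepM

variable {ρ : Aut → End K N} (h : RepM ρ) {x : Q} {c : Cs} {v w : N} {i j : Pt}
include h

theorem ps_eq {g : Co0} {k : Aut} (hk : k ∈ CZ) (e : rhoC ⟨k, hk⟩ = g) : ps ρ g = ρ k * PQ ρ 1 := by
  obtain ⟨q, hq⟩ := (rhoC_eq_one (g := ⟨k, hk⟩⁻¹ * ⟨_, lf_mem g⟩)).1 (by rw [map_mul, map_inv, rhoC_lf, e, inv_mul_cancel])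
  rw [ps, show lf g = k * qV q from eq_mul_of_inv_mul_eq hq.symm, h.mul (CZ_le_M1 hk) (mq q), mul_assoc, h.q_PQ]
  simp [cmQ]
theorem ps_ind {g : Aut} {σ : M24} {d : Cd} (e : Ind g σ d) : ps ρ (mo σ d) = ρ g * PQ ρ 1 := h.ps_eq e.1 e.2
theorem ps_one : ps ρ 1 = PQ ρ 1 := by rw [h.ps_eq (one_mem _) (map_one rhoC), h.one, one_mul]
theorem app {a b c d : Aut} (ha : a ∈ M1) (hb : b ∈ M1) (hc : c ∈ M1) (hd : d ∈ M1) (e : a * b = c * d) (v : N) :
    ρ a (ρ b v) = ρ c (ρ d v) := congr($(h.rel ha hb hc hd e) v)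
theorem q_app (e : PQ ρ x v = v) (q : Q) : ρ (qV q) v = sk K (cmQ q x) • v := by
  simpa [e] using congr($(h.q_PQ q x) v)

variable [CharZero K]

theorem nh_ps : NH (ps ρ) := fun g k => by
  rw [h.ps_eq (mul_mem (lf_mem g) (lf_mem k)) (by rw [QuotientGroup.mk_mul, ← rhoC_lf, ← rhoC_lf, ← map_mul]; rfl),
    h.mul (CZ_le_M1 (lf_mem g)) (CZ_le_M1 (lf_mem k)), ps, ps, mul_assoc, mul_assoc, ← mul_assoc (PQ ρ 1),
    ← h.semi (x := 1) (lf_mem k) (by simp), mul_assoc, h.idem]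
theorem nh_mo : NH fun d : Multiplicative Cd => ps ρ (mo 1 d.toAdd) := fun d e => by
  simp only [← h.nh_ps _ _, mo_mul, mul_one, sC_one, toAdd_mul]
theorem mo_PS (d : Cd) (c : Cs) : ps ρ (mo 1 d) * PS ρ c = sk K (pr d c) • PS ρ c := mul_pj h.nh_mo (ch_pr c) (.ofAdd d)
theorem PQ_PS (c : Cs) : PQ ρ 1 * PS ρ c = PS ρ c := by simpa [mo_one, h.ps_one] using h.mo_PS 0 c
theorem idem' (c : Cs) : PS ρ c * PS ρ c = PS ρ c := pj_idem h.nh_mo (ch_pr c) (by simp)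
theorem orth' {c c' : Cs} (e : c ≠ c') : PS ρ c * PS ρ c' = 0 := by
  obtain ⟨d, hd⟩ := not_forall.1 (mt (eq_zero_of_pr_right (c := c + c')) fun e' => e (by
    rw [← add_zero c', ← e', add_comm c, ← add_assoc, cs_add_self, zero_add]))
  exact pj_mul_pj two_ne_zero h.nh_mo (ch_pr c) (ch_pr c') (a := .ofAdd d) fun e => hd (by simpa [z2_eq_iff] using e)
theorem semi' (σ : M24) (e : Cd) (δ : W) : ps ρ (mo σ e) * PS ρ (cs δ) = PS ρ (cs (sW σ δ)) * ps ρ (mo σ e) :=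
  semi_pj (A := Multiplicative Cd) (A' := Multiplicative Cd) (Equiv.ofBijective _ (sC_bij σ)) (fun d => by
    change _ = ps ρ (mo 1 (sC σ d.toAdd)) * _
    simp only [← h.nh_ps _ _, mo_mul, mul_one, one_mul, sC_one, add_comm]) fun d => sW_dot _ _ _

theorem sum_PS : ∑ c, PS ρ c = PQ ρ 1 := by
  simp only [PS, sum_pj]
  rw [sum_eq_single 1 (fun d _ hd => ?_) (by simp)]
  · simp [mo_one, h.ps_one, smul_smul, ← Nat.card_eq_fintype_card, show Nat.card (Multiplicative Cd) = _ from card_Cd, card_Cs]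
  obtain ⟨c, hc⟩ := not_forall.1 (mt (eq_zero_of_pr_left (d := d.toAdd)) hd)
  rw [show ∑ c, sk K (pr d.toAdd c) = 0 from @sum_sk K (Multiplicative Cs) _ _ instFintypeCs (β := fun c => pr d.toAdd c.toAdd) two_ne_zero
    (fun _ _ => map_add _ _ _) (a := .ofAdd c) ((z2_cases _).resolve_left hc), zero_smul]

theorem wt_of (hb : ∀ δ, δ ⬝ᵥ 1 = 0 → ρ (bq δ) w = w) (hx : ∀ d, ρ (xq 0 d) w = sk K (pr d c) • w) (e : PQ ρ x w ≠ 0) :
    x.c = c ∧ ∃ n : ZMod 2, x.d = n • Om := by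
  have h1 : ∀ δ, δ ⬝ᵥ 1 = 0 → (x.d : W) ⬝ᵥ δ = 0 := fun δ hδ => by
    simpa [cmQ] using eq_of_pj two_ne_zero h.nh (ch_cmQ x) e (a := qe 0 0 δ) (s := 0) ((hb δ hδ).trans (by simp))
  refine ⟨?_, (x.d : W) none, Subtype.ext (funext fun i => ?_)⟩
  · rw [← add_zero c, ← eq_zero_of_pr_right (c := c + x.c) fun d => ?_, ← add_assoc, cs_add_self, zero_add]
    simpa [cmQ, h1, z2_eq_iff, add_comm] using eq_of_pj two_ne_zero h.nh (ch_cmQ x) e (hx d)
  · simpa [z2_eq_iff] using h1 _ (pair_dot_one i none)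

theorem wt_tau (e : PS ρ c v = v) : ρ zA (ρ tau⁻¹ v) = ρ tau⁻¹ v ∧ (∀ δ, δ ⬝ᵥ 1 = 0 → ρ (bq δ) (ρ tau⁻¹ v) = ρ tau⁻¹ v) ∧
    (∀ d, ρ (xq 0 d) (ρ tau⁻¹ v) = sk K (pr d c) • ρ tau⁻¹ v) ∧ ∀ d, ρ (zq d) (ρ tau⁻¹ v) = ρ tau⁻¹ v := by
  have mt := inv_mem tau_mem_M1
  have e1 : PQ ρ 1 v = v := by simpa [e] using congr($(h.PQ_PS c) v)
  have e2 : ∀ q, ρ (qV q) v = v := fun q => by simpa [cmQ] using h.q_app e1 q
  refine ⟨?_, fun δ hδ => ?_, fun d => ?_, fun d => ?_⟩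
  · rw [h.app (mq _) mt mt (mq aOm) (by rw [← tau_conj_zQ]; group), e2]
  · rw [h.app (b := tau⁻¹) (CZ_le_M1 (bq_mem_CZ δ)) mt mt (mq (qe 0 0 δ)) (Commute.inv_left (tau_comm_bq hδ)).eq.symm, e2]
  · rw [h.app (mN (xq_mem 0 d)) mt mt (mN (yq_mem 0 d)) (by rw [yq]; group), ← map_smul]
    simpa [h.ps_ind (ind_yq 0 d), e, e1] using congr(ρ tau⁻¹ ($(h.mo_PS d c) v))
  · rw [h.app (mN (zq_mem d)) mt mt (mq (qe 0 d (th d))) (by rw [zq, xq]; group), e2]

theorem eq_zero_of_P (hij : i ≠ j) (e : PS ρ (du i j) v = v) (h0 : PQ ρ (eP 0 i j) (ρ tau⁻¹ v) = 0) : v = 0 := by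
  obtain ⟨h1, h2, h3, h4⟩ := h.wt_tau e
  have : ρ tau⁻¹ v = 0 := by_contra fun hw => by
    obtain ⟨x, hx⟩ := h.exists_PQ hw h1
    obtain ⟨a, n, b⟩ := h.wt_of h2 h3 hx
    rw [PQ_congr ρ (piQ_congr (y := eP n i j) b a)] at hx
    obtain rfl | rfl := z2_cases n
    · exact hx h0
    obtain ⟨d, hd⟩ := not_forall.1 (mt eq_zero_of_pr_right (du_ne hij))
    obtain ⟨y, e1, -, e2⟩ := zq_conj d i j
    have := congr($(h.semi (NV_le (zq_mem d)) e1) (ρ tau⁻¹ v))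
    rw [Module.End.mul_apply, Module.End.mul_apply, h0, h4, PQ_congr ρ e2, (z2_cases _).resolve_left hd, map_zero] at this
    exact hx this.symm
  simpa [this] using congr($(h.mul_inv tau_mem_M1) v).symm

variable [FiniteDimensional K N] (hn : finrank K N < 196883)
include hn

theorem PS_eq_zero (h0 : c ≠ 0) (h1 : ∀ i j, i ≠ j → c ≠ du i j) : PS ρ c = 0 := LinearMap.ext fun u => by_contra fun hu => by
  have e : PS ρ c (PS ρ c u) = PS ρ c u := congr($(h.idem' c) u)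
  obtain ⟨a1, a2, a3, -⟩ := h.wt_tau e
  have a4 : pr Om c = 0 := by
    have e1 : PQ ρ 1 (PS ρ c u) = PS ρ c u := congr($(h.PQ_PS c) u)
    have := congr($(h.mo_PS Om c) u)
    rw [← zero_add Om, h.ps_ind (ind_qV 1).add_Om, map_one, h.one, one_mul, Module.End.mul_apply, e1, zero_add] at this
    exact (sk_inj two_ne_zero (smul_left_injective K hu ((sk_zero (K := K) ▸ one_smul K _).trans this))).symm
  obtain ⟨x, hx⟩ := h.exists_PQ (fun e => hu (by simpa [e] using congr($(h.mul_inv tau_mem_M1) (PS ρ c u)).symm)) a1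
  obtain ⟨rfl, n, b⟩ := h.wt_of a2 a3 hx
  have hs : Short x := by_contra fun hs => hx (by
    rw [h.PQ_eq_zero hn hs fun e => by rcases piQ_eq_zero e with rfl | rfl <;> exact h0 rfl]; rfl)
  obtain ⟨s, p | ⟨⟨O, δ⟩, hp⟩ | p, rfl⟩ := hs.exists_eS
  · exact h1 _ _ p.2.2 (by simp [eS, eP])
  · have : (O : W) = (n + hw δ) • 1 := by
      have := congr(($b).1)
      simp only [eS, eT, mul_d, zp_d, zero_add, qe_d, Submodule.coe_add, Submodule.coe_smul, coe_Om] at this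
      rw [add_smul, ← this, add_assoc, w_add_self, add_zero]
    have h8 := hp.1
    rcases z2_cases (n + hw δ) with e | e <;> simp [this, e] at h8
  · exact absurd ((par_zp _ _).symm.trans a4 |>.symm.trans (by simp [eS, par_eW])) (by decide : (0 : ZMod 2) ≠ 1)

theorem rk_PS_le (hij : i ≠ j) : rk (PS ρ (du i j)) ≤ 1 := by
  rw [← (h.rk_PQ hn).1 _ (short_eP 0 hij)]
  refine LinearMap.finrank_le_finrank_of_injective (f := ((PQ ρ (eP 0 i j)).rangeRestrict ∘ₗ ρ tau⁻¹).domRestrict _)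
    ((injective_iff_map_eq_zero _).2 fun ⟨_, u, e⟩ h0 => Subtype.ext ?_)
  subst e
  exact h.eq_zero_of_P hij congr($(h.idem' _) u) (congrArg Subtype.val h0)

theorem fix_PS (hij : i ≠ j) {σ : M24} (e : cs (sW σ (e1 i + e1 j)) = du i j) :
    ps ρ (mo σ 0) * PS ρ (du i j) = PS ρ (du i j) := LinearMap.ext fun u => sub_eq_zero.1 (h.eq_zero_of_P hij (by
  have h1 := h.semi' σ 0 (e1 i + e1 j)
  rw [e] at h1
  rw [map_sub, h1, ← Module.End.mul_apply, ← mul_assoc, ← Module.End.mul_apply, h.idem']) (by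
  have m := NV_le (xp_mem σ)
  have h2 : xp σ * qV (eP 0 i j) * (xp σ)⁻¹ = qV (eP 0 i j) := by
    rw [qV_eP0, xp_bq, bq, bq, qe, qe, e]
  have h3 := h.fix_PQ (short_eP 0 hij) ((h.rk_PQ hn).1 _ (short_eP 0 hij)).le (h.idem _) m (mul_inv_eq_iff_eq_mul.1 h2)
  rw [h.semi m h2] at h3
  rw [h.ps_ind (ind_xp σ), mul_assoc, h.PQ_PS, map_sub, map_sub, Module.End.mul_apply, h.app (inv_mem tau_mem_M1) (CZ_le_M1 m)
    (CZ_le_M1 m) (inv_mem tau_mem_M1) (Commute.inv_left (tau_comm_xp σ)).eq, ← Module.End.mul_apply, h3, sub_self]))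

theorem PS_ne (hij : i ≠ j) : PS ρ (du i j) ≠ 0 := by
  have r1 := (h.rk_PQ hn).1 _ (short_eP 0 hij)
  obtain ⟨u, hu⟩ : ∃ u, PQ ρ (eP 0 i j) u ≠ 0 := by
    by_contra! e
    rw [show PQ ρ _ = 0 from LinearMap.ext e] at r1
    rw [rk, LinearMap.range_eq_bot.2 rfl, finrank_bot] at r1; omega
  have e0 : PQ ρ (eP 0 i j) (PQ ρ (eP 0 i j) u) = _ := congr($(h.idem _) u)
  generalize PQ ρ (eP 0 i j) u = v at hu e0
  obtain ⟨d, hd⟩ := not_forall.1 (mt eq_zero_of_pr_right (du_ne hij))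
  replace hd := (z2_cases _).resolve_left hd
  have e1 : PQ ρ (eP 1 i j) (ρ (zq d) v) = ρ (zq d) v := by
    obtain ⟨y, e1, -, e2⟩ := zq_conj d i j
    have := congr($(h.semi (NV_le (zq_mem d)) e1) v).symm
    rwa [Module.End.mul_apply, Module.End.mul_apply, e0, PQ_congr ρ e2, hd] at this
  have z0 : ∀ e, pr e (du i j) = 0 → ρ (zq e) v = v := fun e he => by
    obtain ⟨y, e1, e2, -⟩ := zq_conj e i j
    rw [e2 he] at e1
    have := congr($(h.fix_PQ (short_eP 0 hij) r1.le (h.idem _) (NV_le (zq_mem e)) (mul_inv_eq_iff_eq_mul.1 e1)) v)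
    rwa [Module.End.mul_apply, e0] at this
  have z1 : ∀ e f, ρ (zq e) (ρ (zq f) v) = ρ (zq (e + f)) v := fun e f => by
    obtain ⟨q, a, b⟩ := zq_mul e f
    rw [h.app (mN (zq_mem _)) (mN (zq_mem _)) (mN (zq_mem _)) (mq q) a, h.q_app e0, b, sk_zero, one_smul]
  have z2 : ∀ e, pr e (du i j) = 1 → ρ (zq e) v = ρ (zq d) v := fun e he => by
    conv_rhs => rw [← z0 (d + e) (by rw [pr_add, hd, he, z2_add_self]), z1, ← add_assoc, cd_add_self, zero_add]
  obtain ⟨w, hw⟩ : ∃ w, w = v + ρ (zq d) v := ⟨_, rfl⟩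
  have w1 : ∀ e, ρ (zq e) w = w := fun e => by
    rw [hw, map_add, z1]
    rcases z2_cases (pr e (du i j)) with he | he
    · rw [z0 e he, z2 _ (by rw [pr_add, hd, he, zero_add])]
    · rw [z2 e he, z0 (e + d) (by rw [pr_add, hd, he, z2_add_self]), add_comm]
  have w2 : ∀ q : Q, pr Om q.c = 0 → ρ (qV q) w = sk K (pr q.d (du i j)) • w := fun q hq => by
    rw [hw, map_add, h.q_app e0, h.q_app e1, smul_add]; simp [cmQ, eP, hq]
  have mt := tau_mem_M1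
  have a1 : ρ zA (ρ tau w) = ρ tau w := by
    rw [h.app (mq _) mt mt (mq (qe 1 ((1 : ZMod 2) • Om) 0)) (by
      rw [← tau_inv_conj_zp, ← mul_assoc, ← mul_assoc, mul_inv_cancel, one_mul]; rfl), w2 _ (by simp)]; simp
  have a2 : PQ ρ 1 (ρ tau w) = ρ tau w := (sub_eq_zero.1 (by_contra fun hu => by
    obtain ⟨x, hx⟩ := h.exists_PQ hu (by
      rw [map_sub, a1, h.q_app (x := 1) (LinearMap.congr_fun (h.idem 1) _) zQ]; simp [cmQ])
    by_cases e : piQ x = piQ 1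
    · exact hx (by rw [PQ_congr ρ e, map_sub, ← Module.End.mul_apply (PQ ρ 1) (PQ ρ 1), h.idem, sub_self])
    rw [map_sub, ← Module.End.mul_apply (PQ ρ x) (PQ ρ 1), h.orth e, LinearMap.zero_apply, sub_zero] at hx
    obtain ⟨a, n, b⟩ := h.wt_of (c := 0) (fun δ hδ => by
      rw [bq, h.app (mq _) mt mt (mq _) (tau_comm_bq hδ).symm, w2 _ (by simpa [dotProduct_comm] using hδ)]; simp) (fun d => by
      rw [h.app (mN (xq_mem 0 d)) mt mt (mN (zq_mem d)) (by rw [zq]; group), w1]; simp) hx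
    obtain rfl | rfl := z2_cases n
    · exact e (piQ_congr (by simpa using b) a)
    · exact hx (by
        rw [PQ_congr ρ (piQ_congr (y := aOm) (by simpa using b) a), h.PQ_eq_zero hn (fun s => s.ne_om rfl) om_ne_zero]; rfl))).symm
  intro e
  have a3 : ρ tau w = 0 := (pj_apply_of (by simp) fun d => by
    rw [h.ps_ind (ind_yq 0 _), Module.End.mul_apply, a2, h.app (mN (yq_mem 0 _)) mt mt (mq _) (by rw [yq, inv_mul_cancel_right]; rfl),
      w2 _ (by simp), map_smul]; rfl).symm.trans (LinearMap.congr_fun e _)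
  replace a3 : w = 0 := by simpa [a3] using congr($(h.mul_inv (inv_mem mt)) w).symm
  have a4 := congr($(h.orth (x := eP 0 i j) (y := eP 1 i j) fun e => by
    simpa [cmQ, eP] using cmQ_congr e (qe 0 0 (Griess.e1 none))) (ρ (zq d) v))
  rw [Module.End.mul_apply, e1, eq_neg_of_add_eq_zero_right (hw.symm.trans a3), map_neg, e0] at a4
  exact hu (neg_eq_zero.1 a4)

theorem tr_PS (hij : i ≠ j) : trace K N (PS ρ (du i j)) = 1 := by
  rw [tr_idem (h.idem' _), (h.rk_PS_le hn hij).antisymm (Nat.pos_of_ne_zero (mt eq_zero_of_rk (h.PS_ne hn hij))), Nat.cast_one]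

theorem two_tr (σ : M24) (e : Cd) : 2 * trace K N (ps ρ (mo σ e)) =
    2 * trace K N (ps ρ (mo σ 0) * PS ρ 0) + (∑ p : {p : Pt × Pt // p.1 ≠ p.2}, tz σ e p.1.1 p.1.2 : ℤ) := by
  have h1 : ∀ c, ps ρ (mo σ e) * PS ρ c = ps ρ (mo 1 e) * (ps ρ (mo σ 0) * PS ρ c) := fun c => by
    rw [← mul_assoc, ← h.nh_ps, mo_mul, one_mul, sC_zero, add_zero]
  have h2 : ps ρ (mo σ 0) * PS ρ 0 = PS ρ 0 * ps ρ (mo σ 0) := h.semi' σ 0 0
  rw [← mul_one (mo σ e), h.nh_ps, h.ps_one, ← h.sum_PS, mul_sum, map_sum,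
    two_mul_sum fun c h0 h1 => by rw [h.PS_eq_zero hn h0 h1, mul_zero, map_zero], h1, h2, ← mul_assoc, h.mo_PS, map_zero, sk_zero,
    one_smul, Int.cast_sum]
  refine congrArg _ (sum_congr rfl fun ⟨⟨i, j⟩, hij⟩ _ => ?_)
  by_cases e1 : cs (sW σ (Griess.e1 i + Griess.e1 j)) = du i j
  · rw [h1, h.fix_PS hn hij e1, h.mo_PS, map_smul, h.tr_PS hn hij]
    rw [sW_add, sW_e1, sW_e1] at e1
    obtain ⟨a, b⟩ | ⟨a, b⟩ := eq_of_du hij ((σ : Equiv.Perm Pt).injective.ne hij) e1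
    all_goals simp [tz, hz, Equiv.symm_apply_eq, a, b, hij, sk, Ne.symm hij, sz_add]
  · rw [trace_eq_zero (h.semi' σ e _) (h.idem' _) (h.orth' (Ne.symm e1))]
    rw [sW_add, sW_e1, sW_e1] at e1
    simp only [tz, hz, Equiv.symm_apply_eq]
    have a : ¬ (i = (σ : Equiv.Perm Pt) i ∧ j = (σ : Equiv.Perm Pt) j) := fun a => e1 (by rw [← a.1, ← a.2])
    have b : ¬ (i = (σ : Equiv.Perm Pt) j ∧ j = (σ : Equiv.Perm Pt) i) := fun a => e1 (by rw [← a.1, ← a.2, add_comm])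
    simp only [ite_zero_mul_ite_zero, if_neg a, if_neg b, add_zero, Int.cast_zero]

theorem false_of_lt : False := by
  have h2 : ∀ σ, ps ρ (mo σ 0) * PS ρ 0 = PS ρ 0 * ps ρ (mo σ 0) := fun σ => h.semi' σ 0 0
  have h1 : ps ρ (mo 1 0) * PS ρ 0 = PS ρ 0 := by rw [mo_one, h.ps_one, h.PQ_PS]
  have h3 : NH fun σ => ps ρ (mo σ 0) * PS ρ 0 := fun σ π => by
    simp only
    rw [mul_assoc, ← mul_assoc (PS ρ 0), ← h2, mul_assoc, h.idem', ← mul_assoc, ← h.nh_ps, mo_mul, sC_zero, add_zero]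
  have h4 := h.two_tr hn 1 0
  rw [h1, mo_one, h.ps_one, tr_idem (h.idem _), tr_idem (h.idem' _), sum_congr rfl (g := fun _ => 1) fun p _ => by
    simp [tz, hz, ← Equiv.Perm.inv_def, p.2], sum_pairs fun _ _ => 1] at h4
  have h5 : 2 * rk (PQ ρ 1) = 2 * rk (PS ρ 0) + 552 := by
    rw [show (∑ i : Pt, ∑ j, if i = j then 0 else 1 : ℤ) = 552 by decide +kernel] at h4; exact_mod_cast h4
  have h6 := m24_triv h3 (by have := (h.rk_PQ hn).2; simp only [h1]; omega)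
  obtain ⟨a, σ, d, e, h7, h8⟩ := exists_fusion
  have h9 := h.two_tr hn σ e
  rw [← h.nh_ps.conj (u := a) (x := mo 1 d) (by rw [← h7, inv_mul_cancel_right]), h.two_tr hn, h6 σ] at h9
  exact h8 (tz_conj h7 (Int.cast_injective (add_left_cancel h9)).symm)

end RepM

theorem le_finrank [CharZero K] [FiniteDimensional K N] (R : M1 →* End K N) (hR : Function.Injective R) : 196883 ≤ finrank K N := by
  classical
  refine not_lt.1 (RepM.false_of_lt (ρ := fun g => if h : g ∈ M1 then R ⟨g, h⟩ else 0) ⟨fun hg hk => ?_, ?_, fun e => ?_⟩)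
  · simp only [dif_pos hg, dif_pos hk, dif_pos (mul_mem hg hk), ← map_mul]; rfl
  · exact (dif_pos (one_mem _)).trans R.map_one
  · exact zQ_ne_one (qM_injective ((hR (((dif_pos (mq zQ)).symm.trans e).trans R.map_one.symm)).trans qM.map_one.symm))

end Cfsg.Lib.Deg
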