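import Cfsg.Agent.Lib.Mon.Deg24
import Cfsg.Agent.Lib.Mon.Short

/-! # Projectors onto the weight spaces of characters of order 2 -/

set_option autoImplicit false

namespace Cfsg.Lib.Deg

open Module Finset LinearMap Griess

variable {K N A : Type*} [Field K] [AddCommGroup N] [Module K N] [Group A] [Fintype A]

/-- signs -/
def sk (K : Type*) [Field K] (a : ZMod 2) : K := (sz a : ℤ)

@[simp] theorem sk_zero : sk K 0 = 1 := by simp [sk]
@[simp] theorem sk_one : sk K 1 = -1 := by simp [sk]
theorem sk_add (a b : ZMod 2) : sk K (a + b) = sk K a * sk K b := by simp [sk, sz_add]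
@[simp] theorem sk_mul_self (a : ZMod 2) : sk K a * sk K a = 1 := by rw [← sk_add, z2_add_self, sk_zero]
theorem sk_inj (h2 : (2 : K) ≠ 0) {a b : ZMod 2} (h : sk K a = sk K b) : a = b := by
  rcases z2_cases a with rfl | rfl <;> rcases z2_cases b with rfl | rfl <;> simp only [sk_zero, sk_one] at h ⊢ <;>
    exact (h2 (by first | linear_combination h | linear_combination -h)).elim

/-- characters of order at most 2 -/
def Ch2 (β : A → ZMod 2) : Prop := ∀ a b, β (a * b) = β a + β b
/-- the projector -/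
noncomputable def pj (f : A → End K N) (β : A → ZMod 2) : End K N := (Fintype.card A : K)⁻¹ • ∑ a, sk K (β a) • f a

variable {f : A → End K N} {β γ : A → ZMod 2}

theorem sum_sk (h2 : (2 : K) ≠ 0) (hβ : Ch2 β) {a : A} (h : β a = 1) : ∑ b, sk K (β b) = 0 := by
  have := Equiv.sum_comp (Equiv.mulLeft a) fun b => sk K (β b)
  simp only [Equiv.coe_mulLeft, hβ a, h, sk_add, sk_one, neg_mul, one_mul, sum_neg_distrib] at this
  exact (mul_eq_zero.1 (show 2 * ∑ b, sk K (β b) = 0 by linear_combination -this)).resolve_left h2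

theorem mul_pj (hf : NH f) (hβ : Ch2 β) (a : A) : f a * pj f β = sk K (β a) • pj f β := by
  rw [pj, mul_smul_comm, smul_comm, mul_sum]
  congr 1
  conv_rhs => rw [← Equiv.sum_comp (Equiv.mulLeft a), smul_sum]
  exact sum_congr rfl fun b _ => by simp [hf a b, hβ a b, sk_add, smul_smul, ← mul_assoc]

omit [Group A] in
theorem semi_pj {A' : Type*} [Group A'] [Fintype A'] {g : A' → End K N} {γ : A' → ZMod 2} {T : End K N} (e : A ≃ A')
    (h : ∀ a, T * f a = g (e a) * T) (h' : ∀ a, γ (e a) = β a) : T * pj f β = pj g γ * T := by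
  rw [pj, pj, mul_smul_comm, smul_mul_assoc, mul_sum, sum_mul, ← Equiv.sum_comp e, Fintype.card_congr e]
  simp only [mul_smul_comm, smul_mul_assoc, h, h']

theorem pj_mul (hf : NH f) (hβ : Ch2 β) (a : A) : pj f β * f a = sk K (β a) • pj f β := by
  rw [← mul_pj hf hβ, semi_pj (MulAut.conj a).toEquiv (g := f) (γ := β) (fun b => by simp [← hf _ _]) fun b => by
    have := hβ (a * b * a⁻¹) a
    rw [inv_mul_cancel_right, hβ, add_comm] at this
    exact (add_right_cancel this).symm]

omit [Group A] in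
theorem pj_mul_of {T : End K N} (h0 : (Fintype.card A : K) ≠ 0) (h : ∀ a, f a * T = sk K (β a) • T) : pj f β * T = T := by
  simp only [pj, smul_mul_assoc, sum_mul, h, smul_smul, sk_mul_self, one_smul, sum_const, card_univ,
    ← Nat.cast_smul_eq_nsmul K, inv_mul_cancel₀ h0]

omit [Group A] in
theorem pj_apply_of {v : N} (h0 : (Fintype.card A : K) ≠ 0) (h : ∀ a, f a v = sk K (β a) • v) : pj f β v = v := by
  simp only [pj, LinearMap.smul_apply, LinearMap.sum_apply, h, smul_smul, sk_mul_self, one_smul, sum_const, card_univ,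
    ← Nat.cast_smul_eq_nsmul K, inv_mul_cancel₀ h0]

theorem pj_idem (hf : NH f) (hβ : Ch2 β) (h0 : (Fintype.card A : K) ≠ 0) : pj f β * pj f β = pj f β :=
  pj_mul_of h0 (mul_pj hf hβ)

theorem eq_of_pj (h2 : (2 : K) ≠ 0) (hf : NH f) (hβ : Ch2 β) {v : N} (h : pj f β v ≠ 0) {a : A} {s : ZMod 2}
    (e : f a v = sk K s • v) : β a = s := by
  have := congr($(pj_mul hf hβ a) v)
  rw [Module.End.mul_apply, e, map_smul, LinearMap.smul_apply] at this
  exact (sk_inj h2 (smul_left_injective K h this)).symm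

theorem pj_mul_pj (h2 : (2 : K) ≠ 0) (hf : NH f) (hβ : Ch2 β) (hγ : Ch2 γ) {a : A} (h : β a ≠ γ a) :
    pj f β * pj f γ = 0 := LinearMap.ext fun v => by_contra fun e =>
  h (eq_of_pj h2 hf hβ e congr($(mul_pj hf hγ a) v))

omit [Group A] in
theorem sum_pj {X : Type*} [Fintype X] (β : X → A → ZMod 2) :
    ∑ x, pj f (β x) = (Fintype.card A : K)⁻¹ • ∑ a, (∑ x, sk K (β x a)) • f a := by
  simp only [pj, ← smul_sum, sum_smul]; rw [sum_comm]

theorem trace_eq_zero {T e e' : End K N} (h : T * e = e' * T) (h1 : e * e = e) (h0 : e * e' = 0) :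
    trace K N (T * e) = 0 := by
  rw [← h1, ← mul_assoc, trace_mul_comm, h, ← mul_assoc, h0, zero_mul, map_zero]

variable [FiniteDimensional K N]

theorem exists_smul_of_rk {T e : End K N} (h : rk e ≤ 1) (h1 : e * e = e) (hT : T * e = e * T) : ∃ c : K, T * e = c • e := by
  obtain ⟨v, hv⟩ := finrank_le_one_iff.1 h
  have h2 : e * T * e = T * e := by rw [← hT, mul_assoc, h1]
  obtain ⟨c, hc⟩ := hv ⟨T v, T v, by obtain ⟨_, w, rfl⟩ := v; exact congr($h2 w)⟩
  refine ⟨c, LinearMap.ext fun w => ?_⟩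
  obtain ⟨d, hd⟩ := hv ⟨e w, w, rfl⟩
  have hc := congrArg Subtype.val hc
  have hd := congrArg Subtype.val hd
  simp only [SetLike.val_smul] at hc hd
  rw [Module.End.mul_apply, LinearMap.smul_apply, ← hd, map_smul, ← hc, smul_comm]

theorem rk_congr {T T' e e' : End K N} (h : T * e = e' * T) (h' : T * T' = 1) : rk e' ≤ rk e := by
  rw [← mul_one e', ← h', ← mul_assoc, ← h]
  exact (Submodule.finrank_mono (range_comp_le_range _ _)).trans ((range_comp e T).symm ▸ Submodule.finrank_map_le T _)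

end Cfsg.Lib.Deg
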